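/-
Sylow subgroups of symmetric groups as products of iterated wreath products; `p`-th powers in the derived
subgroup.
-/
import Mathlib
import Cfsg.Agent.Lib.SpWreath.NPow

set_option autoImplicit false
set_option linter.all false

namespace Cfsg.Agent.Lib.SpWreath.PermTower

open Subgroup RegularWreathProduct Cfsg.Agent.Lib.SpWreath.Group Cfsg.Agent.Lib.SpWreath.NRank
open Cfsg.Agent.Lib.SpWreath.NPow
open scoped Nat

section arith

variable (p : ℕ) [hp : Fact p.Prime]

lemma legendre_split_p (a m : ℕ) (h : p ^ a + m < p ^ (a + 1)) :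
    padicValNat p (p ^ a + m)! = padicValNat p (p ^ a)! + padicValNat p m ! := by
  have hp1 := hp.out.one_lt
  have h1 : Nat.log p (p ^ a + m) < a + 1 := Nat.log_lt_of_lt_pow (by
    have : 0 < p ^ a := pow_pos hp.out.pos _
    omega) h
  have h2 : Nat.log p (p ^ a) < a + 1 := lt_of_le_of_lt (Nat.log_mono_right (by omega)) h1
  have h3 : Nat.log p m < a + 1 := lt_of_le_of_lt (Nat.log_mono_right (by omega)) h1
  rw [padicValNat_factorial h1, padicValNat_factorial h2, padicValNat_factorial h3, ← Finset.sum_add_distrib]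
  apply Finset.sum_congr rfl
  intro i hi
  have hi' := Finset.mem_Ico.1 hi
  exact Nat.add_div_of_dvd_right (pow_dvd_pow p (by omega))

lemma level_val (a : ℕ) : p * padicValNat p (p ^ a)! + 1 = padicValNat p (p ^ (a + 1))! := by
  have hp1 := hp.out.one_lt
  obtain ⟨r, hr⟩ : ∃ r, p = r + 1 := ⟨p - 1, by omega⟩
  have hmain : ∀ a : ℕ, r * padicValNat p (p ^ a)! + 1 = p ^ a := by
    intro a
    induction a with
    | zero => simp
    | succ a ih =>
      have e : p ^ (a + 1) = (r + 1) * p ^ a := by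
        rw [pow_succ', ← hr]
      rw [e, ← hr, padicValNat_factorial_mul]
      rw [pow_succ' p a] at e
      generalize p ^ a = t at *
      generalize padicValNat p t ! = x at *
      have e2 : (r + 1) * t = r * t + t := by ring
      have e3 : r * (x + t) = r * x + r * t := by ring
      rw [e, e2, e3]
      generalize r * x = u at *
      generalize r * t = v at *
      omega
  have h := hmain a
  rw [pow_succ' p a, padicValNat_factorial_mul]
  generalize p ^ a = t at *
  generalize padicValNat p t ! = x at *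
  rw [hr]
  have e2 : (r + 1) * x = r * x + x := by ring
  rw [e2]
  omega

end arith

section objects

variable {D Q Λ : Type*} [Group D] [Group Q]

/-- The wreath product action. -/
def wreathPerm (ρ : D →* Equiv.Perm Λ) : D ≀ᵣ Q →* Equiv.Perm (Λ × Q) :=
  @RegularWreathProduct.toPerm D Q _ _ Λ (MulAction.compHom Λ ρ)

lemma wreathPerm_apply (ρ : D →* Equiv.Perm Λ) (w : D ≀ᵣ Q) (x : Λ × Q) :
    wreathPerm ρ w x = (ρ (w.left (w.right * x.2)) x.1, w.right * x.2) := rfl

lemma wreathPerm_injective [Nonempty Λ] (ρ : D →* Equiv.Perm Λ) (hρ : Function.Injective ρ) :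
    Function.Injective (wreathPerm (Q := Q) ρ) := by
  letI := MulAction.compHom Λ ρ
  haveI : FaithfulSMul D Λ := ⟨fun {a b} h => hρ (Equiv.ext h)⟩
  exact RegularWreathProduct.toPermInj D Q Λ

/-- The product action. -/
def prodPerm {D₁ D₂ Λ₁ Λ₂ : Type*} [Group D₁] [Group D₂] (ρ₁ : D₁ →* Equiv.Perm Λ₁) (ρ₂ : D₂ →* Equiv.Perm Λ₂) :
    D₁ × D₂ →* Equiv.Perm (Λ₁ ⊕ Λ₂) :=
  (Equiv.Perm.sumCongrHom Λ₁ Λ₂).comp (ρ₁.prodMap ρ₂)

lemma prodPerm_injective {D₁ D₂ Λ₁ Λ₂ : Type*} [Group D₁] [Group D₂] {ρ₁ : D₁ →* Equiv.Perm Λ₁} {ρ₂ : D₂ →* Equiv.Perm Λ₂}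
    (h₁ : Function.Injective ρ₁) (h₂ : Function.Injective ρ₂) : Function.Injective (prodPerm ρ₁ ρ₂) := by
  intro a b hab
  have h := Equiv.Perm.sumCongrHom_injective hab
  exact Prod.ext (h₁ (congrArg Prod.fst h)) (h₂ (congrArg Prod.snd h))

end objects

section tower

variable (p : ℕ) [hp : Fact p.Prime]

abbrev Cp := Multiplicative (ZMod p)

lemma card_Cp : Nat.card (Cp p) = p := by
  haveI : NeZero p := ⟨hp.out.ne_zero⟩
  simp [Nat.card_eq_fintype_card]

lemma Cp_pow (τ : Cp p) : τ ^ p = 1 := by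
  haveI : NeZero p := ⟨hp.out.ne_zero⟩
  have := pow_card_eq_one' (x := τ)
  rwa [card_Cp] at this

theorem exists_level_perm (a : ℕ) :
    ∃ (D Λ : Type) (_ : Group D) (_ : Finite D) (_ : Finite Λ) (ρ : D →* Equiv.Perm Λ),
      Function.Injective ρ ∧ Nat.card Λ = p ^ a ∧ Nat.card D = p ^ padicValNat p (p ^ a)! ∧
      ∀ x : D, x ^ p ∈ commutator D := by
  classical
  haveI : NeZero p := ⟨hp.out.ne_zero⟩
  induction a with
  | zero =>
    refine ⟨PUnit, PUnit, inferInstance, inferInstance, inferInstance, 1, fun _ _ _ => Subsingleton.elim _ _, ?_, ?_, ?_⟩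
    · simp
    · simp
    · intro x
      rw [Subsingleton.elim (x ^ p) 1]
      exact one_mem _
  | succ a ih =>
    obtain ⟨D, Λ, _, _, _, ρ, hρ, hΛ, hc, hP⟩ := ih
    haveI : Nonempty Λ := by
      apply (Nat.card_pos_iff.1 _).1
      rw [hΛ]
      exact pow_pos hp.out.pos _
    refine ⟨D ≀ᵣ Cp p, Λ × Cp p, inferInstance, inferInstance, inferInstance, wreathPerm ρ,
      wreathPerm_injective ρ hρ, ?_, ?_, wreath_pow_mem (Cp_pow p) hP⟩
    · rw [Nat.card_prod, hΛ, card_Cp, pow_succ]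
    · rw [RegularWreathProduct.card, hc, card_Cp, ← level_val, ← pow_mul, pow_succ, mul_comm (padicValNat _ _)]

theorem exists_all_perm (n : ℕ) :
    ∃ (D Λ : Type) (_ : Group D) (_ : Finite D) (_ : Finite Λ) (ρ : D →* Equiv.Perm Λ),
      Function.Injective ρ ∧ Nat.card Λ = n ∧ Nat.card D = p ^ padicValNat p n ! ∧
      ∀ x : D, x ^ p ∈ commutator D := by
  classical
  have hp1 := hp.out.one_lt
  induction n using Nat.strong_induction_on with
  | _ n ih =>
    rcases Nat.eq_zero_or_pos n with rfl | hn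
    · refine ⟨PUnit, Empty, inferInstance, inferInstance, inferInstance, 1, fun _ _ _ => Subsingleton.elim _ _, ?_, ?_, ?_⟩
      · simp
      · simp
      · intro x
        rw [Subsingleton.elim (x ^ p) 1]
        exact one_mem _
    · set a := Nat.log p n with ha
      have h1 : p ^ a ≤ n := Nat.pow_log_le_self p hn.ne'
      have h2 : n < p ^ (a + 1) := Nat.lt_pow_succ_log_self hp1 n
      clear_value a
      clear ha
      obtain ⟨m, rfl⟩ : ∃ m, n = p ^ a + m := ⟨n - p ^ a, by omega⟩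
      have hmn : m < p ^ a + m := by
        have : 0 < p ^ a := pow_pos hp.out.pos _
        omega
      obtain ⟨D₁, Λ₁, _, _, _, ρ₁, hρ₁, hΛ₁, hc₁, hP₁⟩ := exists_level_perm p a
      obtain ⟨D₂, Λ₂, _, _, _, ρ₂, hρ₂, hΛ₂, hc₂, hP₂⟩ := ih m hmn
      refine ⟨D₁ × D₂, Λ₁ ⊕ Λ₂, inferInstance, inferInstance, inferInstance, prodPerm ρ₁ ρ₂,
        prodPerm_injective hρ₁ hρ₂, ?_, ?_, prod_pow_mem hP₁ hP₂⟩
      · rw [Nat.card_sum, hΛ₁, hΛ₂]
      · rw [Nat.card_prod, hc₁, hc₂, ← pow_add, legendre_split_p p a m h2]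

end tower

/-- Transfer of `p`-th powers. -/
lemma pow_of_equiv {G H : Type*} [Group G] [Group H] (e : G ≃* H) {p : ℕ} (h : ∀ x : G, x ^ p ∈ commutator G) (x : H) :
    x ^ p ∈ commutator H := by
  have he : (commutator G).map e.toMonoidHom = commutator H := by
    simp only [_root_.commutator_def]
    rw [Subgroup.map_commutator, ← MonoidHom.range_eq_map]
    rw [MonoidHom.range_eq_top.2 e.surjective]
  rw [← he]
  refine ⟨e.symm x ^ p, h _, ?_⟩
  simp

/-- `p`-th powers in Sylow subgroups of `S_n`. -/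
theorem pow_sylow_perm (p : ℕ) [hp : Fact p.Prime] (n : ℕ) (P : Sylow p (Equiv.Perm (Fin n)))
    (x : (P : Subgroup (Equiv.Perm (Fin n)))) : x ^ p ∈ commutator (P : Subgroup (Equiv.Perm (Fin n))) := by
  classical
  obtain ⟨D, Λ, _, _, _, ρ, hρ, hΛ, hc, hP⟩ := exists_all_perm p n
  let ε : Λ ≃ Fin n := Finite.equivFinOfCardEq hΛ
  let g : D →* Equiv.Perm (Fin n) := ε.permCongrHom.toMonoidHom.comp ρ
  have hg : Function.Injective g := ε.permCongrHom.injective.comp hρ
  have hcard : Nat.card g.range = p ^ (Nat.card (Equiv.Perm (Fin n))).factorization p := by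
    rw [Nat.card_congr (MonoidHom.ofInjective hg).symm.toEquiv, hc, Nat.card_perm,
      Nat.factorization_def _ hp.out]
    simp
  let S : Sylow p (Equiv.Perm (Fin n)) := Sylow.ofCard g.range hcard
  have e₁ : D ≃* g.range := MonoidHom.ofInjective hg
  have e₂ : (S : Subgroup (Equiv.Perm (Fin n))) ≃* P := S.equiv P
  exact pow_of_equiv (e₁.trans e₂) hP x

end Cfsg.Agent.Lib.SpWreath.PermTower
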