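/-
Sylow `2`-subgroups of alternating groups: squares in the derived subgroup.
-/
import Mathlib
import Cfsg.Agent.Lib.SpWreath.PermTower

set_option autoImplicit false
set_option linter.all false

namespace Cfsg.Agent.Lib.SpWreath.AltTower

open Subgroup RegularWreathProduct Cfsg.Agent.Lib.SpWreath.Group Cfsg.Agent.Lib.SpWreath.NRank
open Cfsg.Agent.Lib.SpWreath.NPow Cfsg.Agent.Lib.SpWreath.PermTower
open scoped Nat

/-- The sign character of a permutation representation. -/
def signHom {D Λ : Type*} [Group D] [Fintype Λ] [DecidableEq Λ] (ρ : D →* Equiv.Perm Λ) : D →* ℤˣ :=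
  Equiv.Perm.sign.comp ρ

@[simp] lemma signHom_apply {D Λ : Type*} [Group D] [Fintype Λ] [DecidableEq Λ] (ρ : D →* Equiv.Perm Λ) (x : D) :
    signHom ρ x = Equiv.Perm.sign (ρ x) := rfl

lemma univ_C2 : (Finset.univ : Finset C2) = {1, Multiplicative.ofAdd 1} := by decide

lemma sign_s : Equiv.Perm.sign (Equiv.mulLeft (Multiplicative.ofAdd 1 : C2)) = -1 := by decide

section

variable {D Λ : Type*} [Group D] [Fintype Λ] [DecidableEq Λ] (ρ : D →* Equiv.Perm Λ)

lemma sign_bp (a b : D) : signHom (wreathPerm ρ) (bp a b : D ≀ᵣ C2) = signHom ρ a * signHom ρ b := by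
  have h : wreathPerm (Q := C2) ρ (bp a b) = Equiv.prodCongrLeft (fun c : C2 => ρ ((bp a b : D ≀ᵣ C2).left c)) := by
    ext x
    · simp [wreathPerm_apply, bp]
    · simp [wreathPerm_apply, bp]
  rw [signHom_apply, h, Equiv.Perm.sign_prodCongrLeft, univ_C2, Finset.prod_pair s_ne.symm]
  simp [bp, s_ne]

lemma sign_yy (h : Even (Fintype.card Λ)) : signHom (wreathPerm ρ) (yy : D ≀ᵣ C2) = 1 := by
  have e : wreathPerm (Q := C2) ρ (yy : D ≀ᵣ C2) =
      Equiv.prodCongrRight (fun _ : Λ => Equiv.mulLeft (Multiplicative.ofAdd 1 : C2)) := by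
    ext x
    · simp [wreathPerm_apply, yy]
    · simp [wreathPerm_apply, yy]
  rw [signHom_apply, e, Equiv.Perm.sign_prodCongrRight, sign_s]
  simp [h.neg_one_pow]

end

lemma C2_sq' (τ : C2) : τ ^ 2 = 1 := by
  revert τ
  decide

theorem exists_level_alt (a : ℕ) :
    ∃ (D Λ : Type) (_ : Group D) (_ : Finite D) (_ : Fintype Λ) (_ : DecidableEq Λ) (ρ : D →* Equiv.Perm Λ),
      Function.Injective ρ ∧ Nat.card Λ = 2 ^ (a + 1) ∧ Nat.card D = 2 ^ padicValNat 2 (2 ^ (a + 1))! ∧
      (∀ x : D, x ^ 2 ∈ commutator D) ∧ NPow (signHom ρ) ∧ ∃ t, signHom ρ t = -1 := by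
  classical
  haveI : Fact (Nat.Prime 2) := ⟨Nat.prime_two⟩
  induction a with
  | zero =>
    refine ⟨C2, C2, inferInstance, inferInstance, inferInstance, inferInstance, MulAction.toPermHom C2 C2,
      MulAction.toPerm_injective, ?_, ?_, ?_, ?_, ?_⟩
    · rw [card_C2]
      rfl
    · rw [card_C2]
      simp [Nat.factorial]
    · intro x
      rw [C2_sq']
      exact one_mem _
    · intro x _
      rw [C2_sq']
      exact one_mem _
    · refine ⟨Multiplicative.ofAdd 1, ?_⟩
      exact sign_s
  | succ a ih =>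
    obtain ⟨D, Λ, _, _, _, _, ρ, hρ, hΛ, hc, hP, hN, t, ht⟩ := ih
    haveI : Nonempty Λ := by
      apply (Nat.card_pos_iff.1 _).1
      rw [hΛ]
      positivity
    have hev : Even (Fintype.card Λ) := by
      rw [← Nat.card_eq_fintype_card, hΛ]
      exact ⟨2 ^ a, by rw [pow_succ]; ring⟩
    refine ⟨D ≀ᵣ C2, Λ × C2, inferInstance, inferInstance, inferInstance, inferInstance, wreathPerm ρ,
      wreathPerm_injective ρ hρ, ?_, ?_, wreath_pow_mem C2_sq' hP, ?_, bp t 1, ?_⟩
    · rw [Nat.card_prod, hΛ, card_C2, pow_succ 2 (a + 1)]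
    · rw [RegularWreathProduct.card, hc, card_C2, ← level_val 2 (a + 1), ← pow_mul, mul_comm (padicValNat _ _), pow_succ 2 (2 * _)]
    · exact NPow.wreath hN _ (sign_bp ρ) (sign_yy ρ hev)
    · rw [sign_bp, ht, map_one, mul_one]

theorem exists_all_alt (n : ℕ) :
    ∃ (D Λ : Type) (_ : Group D) (_ : Finite D) (_ : Fintype Λ) (_ : DecidableEq Λ) (ρ : D →* Equiv.Perm Λ),
      Function.Injective ρ ∧ Nat.card Λ = n ∧ Nat.card D = 2 ^ padicValNat 2 n ! ∧
      (∀ x : D, x ^ 2 ∈ commutator D) ∧ NPow (signHom ρ) ∧ (2 ≤ n → ∃ t, signHom ρ t = -1) ∧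
      (n ≤ 1 → Subsingleton D) := by
  classical
  haveI : Fact (Nat.Prime 2) := ⟨Nat.prime_two⟩
  induction n using Nat.strong_induction_on with
  | _ n ih =>
    by_cases hn : n ≤ 1
    · refine ⟨PUnit, Fin n, inferInstance, inferInstance, inferInstance, inferInstance, 1,
        fun _ _ _ => Subsingleton.elim _ _, by simp, ?_, ?_, ?_, fun h => by omega, fun _ => inferInstance⟩
      · have : n ! = 1 := by
          interval_cases n <;> rfl
        simp [this]
      · intro x
        rw [Subsingleton.elim (x ^ 2) 1]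
        exact one_mem _
      · intro x _
        rw [Subsingleton.elim (x ^ 2) 1]
        exact one_mem _
    · have hn2 : 2 ≤ n := by omega
      have hl : 1 ≤ Nat.log 2 n := Nat.le_log_of_pow_le (by norm_num) (by simpa using hn2)
      obtain ⟨a, ha⟩ : ∃ a, Nat.log 2 n = a + 1 := ⟨Nat.log 2 n - 1, by omega⟩
      have h1 : 2 ^ (a + 1) ≤ n := by
        rw [← ha]
        exact Nat.pow_log_le_self 2 (by omega)
      have h2 : n < 2 ^ (a + 1 + 1) := by
        rw [← ha]
        exact Nat.lt_pow_succ_log_self (by norm_num) n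
      obtain ⟨m, rfl⟩ : ∃ m, n = 2 ^ (a + 1) + m := ⟨n - 2 ^ (a + 1), by omega⟩
      have hmn : m < 2 ^ (a + 1) + m := by
        have : 0 < 2 ^ (a + 1) := by positivity
        omega
      obtain ⟨D₁, Λ₁, _, _, _, _, ρ₁, hρ₁, hΛ₁, hc₁, hP₁, hN₁, t₁, ht₁⟩ := exists_level_alt a
      obtain ⟨D₂, Λ₂, _, _, _, _, ρ₂, hρ₂, hΛ₂, hc₂, hP₂, hN₂, ht₂, hs₂⟩ := ih m hmn
      have hsign : signHom (prodPerm ρ₁ ρ₂) = prodHom (signHom ρ₁) (signHom ρ₂) := by
        ext x
        simp [prodPerm, Equiv.Perm.sign_sumCongr]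
      refine ⟨D₁ × D₂, Λ₁ ⊕ Λ₂, inferInstance, inferInstance, inferInstance, inferInstance, prodPerm ρ₁ ρ₂,
        prodPerm_injective hρ₁ hρ₂, ?_, ?_, prod_pow_mem hP₁ hP₂, ?_, fun _ => ⟨(t₁, 1), ?_⟩, fun h => by omega⟩
      · rw [Nat.card_sum, hΛ₁, hΛ₂]
      · rw [Nat.card_prod, hc₁, hc₂, ← pow_add, legendre_split_p 2 (a + 1) m h2]
      · rw [hsign]
        by_cases hm : m ≤ 1
        · haveI := hs₂ hm
          exact npow_prod_sub hN₁
        · obtain ⟨t₂, ht₂'⟩ := ht₂ (by omega)
          exact npow_prod (e := -1) (by simp) (fun x => Int.units_eq_one_or _) (fun x => Int.units_eq_one_or _)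
            ht₁ ht₂' hP₁ hP₂
      · rw [hsign, prodHom_apply, ht₁, map_one, mul_one]

/-- Odd primes: Sylow subgroups of `A_n` are Sylow subgroups of `S_n`. -/
theorem pow_sylow_alt_odd (p : ℕ) [hp : Fact p.Prime] (hp2 : p ≠ 2) (n : ℕ) (Q : Sylow p (alternatingGroup (Fin n)))
    (x : (Q : Subgroup (alternatingGroup (Fin n)))) : x ^ p ∈ commutator (Q : Subgroup (alternatingGroup (Fin n))) := by
  classical
  by_cases hn : n ≤ 1
  · haveI : Subsingleton (Fin n) := by
      interval_cases n <;> infer_instance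
    have : x ^ p = 1 := Subsingleton.elim _ _
    rw [this]
    exact one_mem _
  · haveI : Nontrivial (Fin n) := Fin.nontrivial_iff_two_le.2 (by omega)
    have hc2 := two_mul_card_alternatingGroup (α := Fin n)
    let g : (Q : Subgroup (alternatingGroup (Fin n))) →* Equiv.Perm (Fin n) :=
      (alternatingGroup (Fin n)).subtype.comp (Q : Subgroup (alternatingGroup (Fin n))).subtype
    have hg : Function.Injective g := Subtype.val_injective.comp Subtype.val_injective
    have hcard : Nat.card (Q : Subgroup (alternatingGroup (Fin n))) =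
        p ^ (Nat.card (Equiv.Perm (Fin n))).factorization p := by
      rw [Q.card_eq_multiplicity]
      congr 1
      rw [Nat.card_eq_fintype_card (α := Equiv.Perm (Fin n)), ← hc2, Nat.factorization_mul (by norm_num) Fintype.card_ne_zero]
      simp only [Finsupp.add_apply]
      have h2 : (Nat.factorization 2) p = 0 := by
        rw [Nat.factorization_eq_zero_iff]
        right
        left
        intro h
        exact hp2 ((Nat.prime_dvd_prime_iff_eq hp.out Nat.prime_two).1 h)
      rw [h2, zero_add, Nat.card_eq_fintype_card]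
    have hcard' : Nat.card g.range = p ^ (Nat.card (Equiv.Perm (Fin n))).factorization p := by
      rw [Nat.card_congr (MonoidHom.ofInjective hg).symm.toEquiv, hcard]
    let S : Sylow p (Equiv.Perm (Fin n)) := Sylow.ofCard g.range hcard'
    have e₁ : g.range ≃* (Q : Subgroup (alternatingGroup (Fin n))) := (MonoidHom.ofInjective hg).symm
    have h := pow_sylow_perm p n S
    exact pow_of_equiv e₁ h x

/-- `p = 2`. -/
theorem pow_sylow_alt_two (n : ℕ) (Q : Sylow 2 (alternatingGroup (Fin n)))
    (x : (Q : Subgroup (alternatingGroup (Fin n)))) : x ^ 2 ∈ commutator (Q : Subgroup (alternatingGroup (Fin n))) := by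
  classical
  haveI : Fact (Nat.Prime 2) := ⟨Nat.prime_two⟩
  by_cases hn : n ≤ 1
  · haveI : Subsingleton (Fin n) := by
      interval_cases n <;> infer_instance
    have : x ^ 2 = 1 := Subsingleton.elim _ _
    rw [this]
    exact one_mem _
  · have hn2 : 2 ≤ n := by omega
    haveI : Nontrivial (Fin n) := Fin.nontrivial_iff_two_le.2 hn2
    obtain ⟨D, Λ, _, _, _, _, ρ, hρ, hΛ, hc, -, hN, ht, -⟩ := exists_all_alt n
    obtain ⟨t, ht⟩ := ht hn2
    let ε : Λ ≃ Fin n := Finite.equivFinOfCardEq hΛ
    let M := (signHom ρ).ker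
    let g : M →* alternatingGroup (Fin n) :=
      MonoidHom.codRestrict ((ε.permCongrHom.toMonoidHom.comp ρ).comp M.subtype) (alternatingGroup (Fin n)) (by
        intro d
        rw [Equiv.Perm.mem_alternatingGroup]
        have h1 : Equiv.Perm.sign (ρ (d : D)) = 1 := d.2
        change Equiv.Perm.sign (ε.permCongr (ρ (d : D))) = 1
        rw [Equiv.Perm.sign_permCongr, h1])
    have hg : Function.Injective g := by
      intro a b hab
      have h1 : ε.permCongr (ρ (a : D)) = ε.permCongr (ρ (b : D)) := congrArg Subtype.val hab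
      exact Subtype.ext (hρ (ε.permCongr.injective h1))
    have hrange : Nat.card (signHom ρ).range = 2 := by
      have : (signHom ρ).range = ⊤ := by
        rw [eq_top_iff]
        intro u _
        rcases Int.units_eq_one_or u with rfl | rfl
        · exact one_mem _
        · exact ⟨t, ht⟩
      rw [this, Subgroup.card_top, Nat.card_eq_fintype_card, Fintype.card_units_int]
    have hM : Nat.card D = Nat.card M * 2 := by
      rw [← hrange, ← Subgroup.index_ker, Subgroup.card_mul_index]
    have hA := two_mul_card_alternatingGroup (α := Fin n)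
    have hcardM : Nat.card M = 2 ^ (Nat.card (alternatingGroup (Fin n))).factorization 2 := by
      have h1 : padicValNat 2 n ! = (Nat.card (alternatingGroup (Fin n))).factorization 2 + 1 := by
        rw [Fintype.card_perm, Fintype.card_fin] at hA
        rw [← hA, padicValNat.mul (by norm_num) Fintype.card_ne_zero, padicValNat.self (by norm_num),
          Nat.factorization_def _ Nat.prime_two, Nat.card_eq_fintype_card, add_comm]
      rw [h1, pow_succ] at hc
      omega
    have hcard' : Nat.card g.range = 2 ^ (Nat.card (alternatingGroup (Fin n))).factorization 2 := by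
      rw [Nat.card_congr (MonoidHom.ofInjective hg).symm.toEquiv, hcardM]
    let S : Sylow 2 (alternatingGroup (Fin n)) := Sylow.ofCard g.range hcard'
    have e₁ : M ≃* g.range := MonoidHom.ofInjective hg
    have e₂ : (S : Subgroup (alternatingGroup (Fin n))) ≃* Q := S.equiv Q
    exact pow_of_equiv (e₁.trans e₂) hN.sq_mem x

end Cfsg.Agent.Lib.SpWreath.AltTower
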