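/-
Sets of commuting isometric involutions of a nondegenerate alternating space of dimension `2k` have at most
`2 ^ k` elements.
-/
import Mathlib
import Cfsg.Agent.S0752
import Cfsg.Agent.Lib.SylowLarge.SpForm

set_option autoImplicit false
set_option linter.all false

namespace Cfsg.Agent.Lib.SpWreath.Rank

open Module Cfsg.Agent.Lib.SylowLarge.SpForm

universe u

variable {F : Type u} [Field F]

lemma finrank_even {V : Type*} [AddCommGroup V] [Module F V] [FiniteDimensional F V]
    (ω : LinearMap.BilinForm F V) (hω : ω.IsAlt) (hn : ω.Nondegenerate) : ∃ r, finrank F V = 2 * r := by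
  classical
  obtain ⟨m', k', b, h1, h2, h3, h4⟩ := Cfsg.Agent.S0752.result ω hω
  have hk' : k' = 0 := by
    by_contra hne
    have hpos : 0 < k' := Nat.pos_of_ne_zero hne
    let j : Fin k' := ⟨0, hpos⟩
    have h5 : b (Sum.inr j) = 0 := hn.1 _ (h4 j)
    exact b.ne_zero _ h5
  subst hk'
  refine ⟨m', ?_⟩
  have := Module.finrank_eq_card_basis b
  simp only [Fintype.card_sum, Fintype.card_fin] at this
  omega

section

variable {V : Type u} [AddCommGroup V] [Module F V]

/-- Restriction of a set of endomorphisms to a subspace. -/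
def resSet (H : Set (Module.End F V)) (W : Submodule F V) : Set (Module.End F W) :=
  {T | ∃ h ∈ H, ∀ x : W, ((T x : W) : V) = h x}

lemma resSet_sq {H : Set (Module.End F V)} (hsq : ∀ h ∈ H, h * h = 1) (W : Submodule F V) :
    ∀ T ∈ resSet H W, T * T = 1 := by
  rintro T ⟨h, hh, hT⟩
  ext x
  rw [Module.End.mul_apply, hT, hT, ← Module.End.mul_apply, hsq h hh]
  rfl

lemma resSet_comm {H : Set (Module.End F V)} (hcomm : ∀ h ∈ H, ∀ h' ∈ H, h * h' = h' * h) (W : Submodule F V) :
    ∀ T ∈ resSet H W, ∀ T' ∈ resSet H W, T * T' = T' * T := by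
  rintro T ⟨h, hh, hT⟩ T' ⟨h', hh', hT'⟩
  ext x
  rw [Module.End.mul_apply, hT, hT', ← Module.End.mul_apply, hcomm h hh h' hh', Module.End.mul_apply, Module.End.mul_apply, hT', hT]

end

theorem card_le [Finite F] (h2 : (2 : F) ≠ 0) : ∀ (k : ℕ) (V : Type u) [AddCommGroup V] [Module F V]
    [FiniteDimensional F V] (ω : LinearMap.BilinForm F V) (_ : ω.IsAlt) (_ : ω.Nondegenerate)
    (_ : finrank F V = 2 * k) (H : Set (Module.End F V)) (_ : ∀ h ∈ H, h * h = 1)
    (_ : ∀ h ∈ H, ∀ x y, ω (h x) (h y) = ω x y) (_ : ∀ h ∈ H, ∀ h' ∈ H, h * h' = h' * h),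
    Nat.card H ≤ 2 ^ k := by
  intro k
  induction k using Nat.strong_induction_on with
  | _ k ih =>
    intro V _ _ _ ω hω hn hdim H hsq hiso hcomm
    classical
    haveI : Finite V := Module.finite_of_finite F
    haveI : Finite (Module.End F V) := by
      haveI : Module.Finite F (Module.End F V) := inferInstance
      exact Module.finite_of_finite F
    by_cases hcase : ∃ z ∈ H, z ≠ 1 ∧ z ≠ -1
    · obtain ⟨z, hz, hz1, hz2⟩ := hcase
      have hzz : ∀ x, z (z x) = x := fun x => by
        have := congrArg (fun T : Module.End F V => T x) (hsq z hz)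
        simpa using this
      let W₁ : Submodule F V := LinearMap.ker (z - 1)
      let W₂ : Submodule F V := LinearMap.ker (z + 1)
      have m1 : ∀ x, x ∈ W₁ ↔ z x = x := fun x => by
        simp [W₁, sub_eq_zero]
      have m2 : ∀ x, x ∈ W₂ ↔ z x = -x := fun x => by
        simp [W₂, add_eq_zero_iff_eq_neg]
      have horth : ∀ x ∈ W₁, ∀ y ∈ W₂, ω x y = 0 := by
        intro x hx y hy
        have h3 := hiso z hz x y
        rw [(m1 x).1 hx, (m2 y).1 hy, map_neg] at h3
        have h4 : (2 : F) * ω x y = 0 := by linear_combination -h3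
        exact (mul_eq_zero.1 h4).resolve_left h2
      have h2inv : (2 : F)⁻¹ * 2 = 1 := inv_mul_cancel₀ h2
      have hdisj : W₁ ⊓ W₂ = ⊥ := by
        rw [eq_bot_iff]
        rintro x ⟨hx1, hx2⟩
        have h5 := (m1 x).1 hx1
        have h6 := (m2 x).1 hx2
        rw [h5] at h6
        have h7 : (2 : F) • x = 0 := by
          rw [two_smul]
          nth_rewrite 1 [h6]
          simp
        simpa [h2] using h7
      have hsup : ∀ x : V, ∃ a ∈ W₁, ∃ b ∈ W₂, a + b = x := by
        intro x
        refine ⟨(2 : F)⁻¹ • (x + z x), ?_, (2 : F)⁻¹ • (x - z x), ?_, ?_⟩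
        · rw [m1, map_smul, map_add, hzz, add_comm]
        · rw [m2, map_smul, map_sub, hzz, ← smul_neg, neg_sub]
        · rw [← smul_add]
          have : x + z x + (x - z x) = (2 : F) • x := by
            rw [two_smul]
            abel
          rw [this, smul_smul, h2inv, one_smul]
      have hcompl : IsCompl W₁ W₂ := by
        refine ⟨disjoint_iff.2 hdisj, codisjoint_iff.2 ?_⟩
        rw [eq_top_iff]
        intro x _
        obtain ⟨a, ha, b, hb, rfl⟩ := hsup x
        exact Submodule.add_mem_sup ha hb
      have hW1 : W₁ ≠ ⊥ := by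
        intro h0
        apply hz2
        ext1 x
        obtain ⟨a, ha, b, hb, rfl⟩ := hsup x
        rw [h0, Submodule.mem_bot] at ha
        subst ha
        simp [(m2 b).1 hb]
      have hW2 : W₂ ≠ ⊥ := by
        intro h0
        apply hz1
        ext1 x
        obtain ⟨a, ha, b, hb, rfl⟩ := hsup x
        rw [h0, Submodule.mem_bot] at hb
        subst hb
        simp [(m1 a).1 ha]
      let ω₁ := ω.restrict W₁
      let ω₂ := ω.restrict W₂
      have halt₁ : ω₁.IsAlt := fun x => hω _
      have halt₂ : ω₂.IsAlt := fun x => hω _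
      have hsepω := (sep_iff hω).1 hn
      have hn₁ : ω₁.Nondegenerate := by
        refine (sep_iff halt₁).2 ?_
        rintro ⟨x, hx⟩ h
        apply Subtype.ext
        apply hsepω
        intro y
        obtain ⟨a, ha, b, hb, rfl⟩ := hsup y
        have h3 := h ⟨a, ha⟩
        have h4 : ω x a = 0 := h3
        rw [map_add, h4, horth x hx b hb, add_zero]
      have hn₂ : ω₂.Nondegenerate := by
        refine (sep_iff halt₂).2 ?_
        rintro ⟨x, hx⟩ h
        apply Subtype.ext
        apply hsepω
        intro y
        obtain ⟨a, ha, b, hb, rfl⟩ := hsup y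
        have h3 := h ⟨b, hb⟩
        have h4 : ω x b = 0 := h3
        have h5 : ω x a = 0 := by
          have h6 := horth a ha x hx
          have h7 : ω x a = - ω a x := by
            have h := hω (x + a)
            simp only [map_add, LinearMap.add_apply, hω x, hω a, zero_add, add_zero] at h
            exact eq_neg_of_add_eq_zero_right h
          rw [h7, h6, neg_zero]
        rw [map_add, h4, h5, add_zero]
      obtain ⟨k₁, hk₁⟩ := finrank_even ω₁ halt₁ hn₁
      obtain ⟨k₂, hk₂⟩ := finrank_even ω₂ halt₂ hn₂
      have hsum := Submodule.finrank_add_eq_of_isCompl hcompl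
      have hpos₁ : 0 < finrank F W₁ := Module.finrank_pos_iff.2 (Submodule.nontrivial_iff_ne_bot.2 hW1)
      have hpos₂ : 0 < finrank F W₂ := Module.finrank_pos_iff.2 (Submodule.nontrivial_iff_ne_bot.2 hW2)
      have hk : k₁ + k₂ = k := by omega
      have hlt₁ : k₁ < k := by omega
      have hlt₂ : k₂ < k := by omega
      have r₁ := ih k₁ hlt₁ W₁ ω₁ halt₁ hn₁ hk₁ (resSet H W₁) (resSet_sq hsq W₁) (by
        rintro T ⟨h, hh, hT⟩ x y
        change ω ((T x : W₁) : V) ((T y : W₁) : V) = ω x y
        rw [hT, hT, hiso h hh]) (resSet_comm hcomm W₁)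
      have r₂ := ih k₂ hlt₂ W₂ ω₂ halt₂ hn₂ hk₂ (resSet H W₂) (resSet_sq hsq W₂) (by
        rintro T ⟨h, hh, hT⟩ x y
        change ω ((T x : W₂) : V) ((T y : W₂) : V) = ω x y
        rw [hT, hT, hiso h hh]) (resSet_comm hcomm W₂)
      have hinv₁ : ∀ h ∈ H, ∀ x ∈ W₁, h x ∈ W₁ := by
        intro h hh x hx
        rw [m1] at hx ⊢
        have := congrArg (fun T : Module.End F V => T x) (hcomm z hz h hh)
        simp only [Module.End.mul_apply] at this
        rw [this, hx]
      have hinv₂ : ∀ h ∈ H, ∀ x ∈ W₂, h x ∈ W₂ := by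
        intro h hh x hx
        rw [m2] at hx ⊢
        have := congrArg (fun T : Module.End F V => T x) (hcomm z hz h hh)
        simp only [Module.End.mul_apply] at this
        rw [this, hx, map_neg]
      let Φ : H → resSet H W₁ × resSet H W₂ := fun h =>
        (⟨(h : Module.End F V).restrict (hinv₁ h h.2), h, h.2, fun x => rfl⟩,
          ⟨(h : Module.End F V).restrict (hinv₂ h h.2), h, h.2, fun x => rfl⟩)
      have hΦ : Function.Injective Φ := by
        intro h h' hhh
        apply Subtype.ext
        ext1 x
        obtain ⟨a, ha, b, hb, rfl⟩ := hsup x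
        have e1 := congrArg (fun p => ((p.1 : Module.End F W₁) ⟨a, ha⟩ : V)) hhh
        have e2 := congrArg (fun p => ((p.2 : Module.End F W₂) ⟨b, hb⟩ : V)) hhh
        have e1' : (h : Module.End F V) a = (h' : Module.End F V) a := e1
        have e2' : (h : Module.End F V) b = (h' : Module.End F V) b := e2
        rw [map_add, map_add, e1', e2']
      haveI : Finite (Module.End F W₁) := by
        haveI : Finite W₁ := inferInstance
        haveI : Module.Finite F (Module.End F W₁) := inferInstance
        exact Module.finite_of_finite F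
      haveI : Finite (Module.End F W₂) := by
        haveI : Finite W₂ := inferInstance
        haveI : Module.Finite F (Module.End F W₂) := inferInstance
        exact Module.finite_of_finite F
      calc Nat.card H ≤ Nat.card (resSet H W₁ × resSet H W₂) := Nat.card_le_card_of_injective Φ hΦ
        _ = Nat.card (resSet H W₁) * Nat.card (resSet H W₂) := Nat.card_prod _ _
        _ ≤ 2 ^ k₁ * 2 ^ k₂ := Nat.mul_le_mul r₁ r₂
        _ = 2 ^ k := by rw [← pow_add, hk]
    · push Not at hcase
      rcases Nat.eq_zero_or_pos k with rfl | hk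
      · have hV : Subsingleton V := Module.finrank_zero_iff.1 (by simpa using hdim)
        have : Subsingleton (Module.End F V) := inferInstance
        have : Subsingleton H := inferInstance
        rw [pow_zero]
        exact Finite.card_le_one_iff_subsingleton.2 this
      · have hsub : H ⊆ {1, -1} := by
          intro h hh
          by_cases h1 : h = 1
          · exact Or.inl h1
          · exact Or.inr (hcase h hh h1)
        have h3 : Nat.card H = H.ncard := Nat.card_coe_set_eq H
        rw [h3]
        calc H.ncard ≤ ({1, -1} : Set (Module.End F V)).ncard := Set.ncard_le_ncard hsub (Set.toFinite _)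
          _ ≤ 2 := by
            classical
            have := Set.ncard_insert_le (1 : Module.End F V) ({-1} : Set (Module.End F V))
            simpa using this
          _ ≤ 2 ^ k := by
            calc 2 = 2 ^ 1 := rfl
              _ ≤ 2 ^ k := Nat.pow_le_pow_right (by norm_num) hk

end Cfsg.Agent.Lib.SpWreath.Rank
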